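import Groth.Agent.Sga4h.NcLerayAbs

/-!
# Vanishing for the derived functors of a composite functor

`F : A ⥤ B` left exact and preserving injectives, `G : B ⥤ C` left exact.  If `R^p G (R^q F M) = 0` for all
`p + q = n`, then `R^n (F ⋙ G) M = 0` (`isZero_rightDerived_comp`).  No spectral sequence: dimension shifting.
-/

set_option autoImplicit false

universe v₁ v₂ v₃ u₁ u₂ u₃

open CategoryTheory CategoryTheory.Limits

namespace Groth.Agent.Sga2lef.H134.CompVan

variable {A : Type u₁} [Category.{v₁} A] [Abelian A] [HasInjectiveResolutions A]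
  {B : Type u₂} [Category.{v₂} B] [Abelian B] [HasInjectiveResolutions B]
  {C : Type u₃} [Category.{v₃} C] [Abelian C]
  (F : A ⥤ B) [F.Additive] [PreservesFiniteLimits F] (G : B ⥤ C) [G.Additive] [PreservesFiniteLimits G]

theorem isZero_zero (M : A) (h : IsZero ((G.rightDerived 0).obj ((F.rightDerived 0).obj M))) :
    IsZero (((F ⋙ G).rightDerived 0).obj M) := by
  have := comp_preservesFiniteLimits F G
  refine h.of_iso ?_
  exact (F ⋙ G).rightDerivedZeroIsoSelf.app M ≪≫ G.mapIso (F.rightDerivedZeroIsoSelf.symm.app M) ≪≫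
    G.rightDerivedZeroIsoSelf.symm.app _

/-- `G.map f` is epi iff `R⁰G (R⁰F f)` is. -/
theorem epi_comp_zero {M N : A} (f : M ⟶ N)
    (h : Epi ((G.rightDerived 0).map ((F.rightDerived 0).map f))) :
    Epi (((F ⋙ G).rightDerived 0).map f) := by
  have := comp_preservesFiniteLimits F G
  have e : G.rightDerived 0 ≅ G := G.rightDerivedZeroIsoSelf
  have e' : F.rightDerived 0 ≅ F := F.rightDerivedZeroIsoSelf
  have e'' : (F ⋙ G).rightDerived 0 ≅ F ⋙ G := (F ⋙ G).rightDerivedZeroIsoSelf
  let i : F.rightDerived 0 ⋙ G.rightDerived 0 ≅ (F ⋙ G).rightDerived 0 :=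
    Functor.isoWhiskerLeft (F.rightDerived 0) e ≪≫ Functor.isoWhiskerRight e' G ≪≫ e''.symm
  have h1 := NatIso.naturality_1 i f
  rw [← h1]
  have h2 : Epi ((F.rightDerived 0 ⋙ G.rightDerived 0).map f) := h
  infer_instance

theorem isZero_rightDerived_comp (hF : ∀ I : A, Injective I → Injective (F.obj I)) :
    ∀ (n : ℕ) (M : A)
    (_ : ∀ p q : ℕ, p + q = n → IsZero ((G.rightDerived p).obj ((F.rightDerived q).obj M))),
    IsZero (((F ⋙ G).rightDerived n).obj M)
  | 0, M, h => isZero_zero F G M (h 0 0 rfl)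
  | 1, M, h => by
    have := comp_preservesFiniteLimits F G
    have := Groth.Agent.Cohder.RDLES.enoughInjectives (C := A)
    let S : ShortComplex A := ShortComplex.mk (Injective.ι M) (cokernel.π (Injective.ι M))
      (cokernel.condition _)
    have hS : S.ShortExact :=
      { exact := ShortComplex.exact_cokernel _
        mono_f := inferInstanceAs (Mono (Injective.ι M))
        epi_g := inferInstanceAs (Epi (cokernel.π _)) }
    have : Injective S.X₂ := inferInstanceAs (Injective (Injective.under M))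
    obtain ⟨δ, hiso, hepi, w₀, w', ses₁, ses₂⟩ := Groth.Agent.Sga4h.NcLerayAbs.exists_data F hS
    -- `R⁰G` of the two maps are epi
    have e1 : Epi ((G.rightDerived 0).map (kernel.lift (δ 0) ((F.rightDerived 0).map S.g) w₀)) := by
      obtain ⟨m0, hmid, ε, hε⟩ := Groth.Agent.Cohder.RDLES.exists_les G ses₁
      obtain ⟨a₁, a₂, ex₁, ex₂⟩ := hε 0
      exact ex₁.epi_f ((h 1 0 rfl).eq_of_tgt _ _)
    have e2 : Epi ((G.rightDerived 0).map (kernel.ι (δ 0))) := by
      obtain ⟨m0, hmid, ε, hε⟩ := Groth.Agent.Cohder.RDLES.exists_les G ses₂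
      have w : (G.rightDerived 0).map (kernel.ι (δ 0)) ≫ (G.rightDerived 0).map (δ 0) = 0 :=
        (h 0 1 rfl).eq_of_tgt _ _
      exact (hmid 0 w).epi_f ((h 0 1 rfl).eq_of_tgt _ _)
    have e3 : Epi ((G.rightDerived 0).map ((F.rightDerived 0).map S.g)) := by
      have h3 : kernel.lift (δ 0) ((F.rightDerived 0).map S.g) w₀ ≫ kernel.ι (δ 0) =
        (F.rightDerived 0).map S.g := kernel.lift_ι _ _ _
      rw [← h3, Functor.map_comp]
      exact epi_comp _ _
    have e4 : Epi (((F ⋙ G).rightDerived 0).map S.g) := epi_comp_zero F G S.g e3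
    obtain ⟨δ', hiso', hepi', w₀', w'', ses₁', ses₂'⟩ :=
      Groth.Agent.Sga4h.NcLerayAbs.exists_data (F ⋙ G) hS
    have h0 : δ' 0 = 0 := by
      rw [← cancel_epi (((F ⋙ G).rightDerived 0).map S.g), w₀', comp_zero]
    exact IsZero.of_epi_eq_zero (δ' 0) h0
  | n + 2, M, h => by
    have := comp_preservesFiniteLimits F G
    have := Groth.Agent.Cohder.RDLES.enoughInjectives (C := A)
    let S : ShortComplex A := ShortComplex.mk (Injective.ι M) (cokernel.π (Injective.ι M))
      (cokernel.condition _)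
    have hS : S.ShortExact :=
      { exact := ShortComplex.exact_cokernel _
        mono_f := inferInstanceAs (Mono (Injective.ι M))
        epi_g := inferInstanceAs (Epi (cokernel.π _)) }
    have : Injective S.X₂ := inferInstanceAs (Injective (Injective.under M))
    obtain ⟨δ, hiso, hepi, w₀, w', ses₁, ses₂⟩ := Groth.Agent.Sga4h.NcLerayAbs.exists_data F hS
    have hinj : Injective (ShortComplex.mk _ _ w').X₂ := by
      have h1 := hF S.X₂ inferInstance
      exact Injective.of_iso (F.rightDerivedZeroIsoSelf.app S.X₂).symm h1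
    have hC : IsZero (((F ⋙ G).rightDerived (n + 1)).obj S.X₃) := by
      refine isZero_rightDerived_comp hF (n + 1) S.X₃ fun p q hpq => ?_
      rcases q with _ | q
      · obtain rfl : p = n + 1 := by omega
        have hE : IsZero ((G.rightDerived (n + 1)).obj (kernel (δ 0))) := by
          obtain ⟨m0, hmid, ε, hε⟩ := Groth.Agent.Cohder.RDLES.exists_les G ses₁
          obtain ⟨a₁, a₂, ex₁, ex₂⟩ := hε (n + 1)
          have hz : IsZero ((G.rightDerived (n + 1)).obj (ShortComplex.mk _ _ w').X₂) :=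
            G.isZero_rightDerived_obj_injective_succ n _
          exact ex₁.isZero_of_both_zeros (hz.eq_of_src _ _) ((h (n + 2) 0 rfl).eq_of_tgt _ _)
        obtain ⟨m0, hmid, ε, hε⟩ := Groth.Agent.Cohder.RDLES.exists_les G ses₂
        have w : (G.rightDerived (n + 1)).map (kernel.ι (δ 0)) ≫ (G.rightDerived (n + 1)).map (δ 0) = 0 :=
          (h (n + 1) 1 (by omega)).eq_of_tgt _ _
        exact (hmid (n + 1) w).isZero_of_both_zeros (hE.eq_of_src _ _)
          ((h (n + 1) 1 (by omega)).eq_of_tgt _ _)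
      · have := hiso q
        exact (h p (q + 2) (by omega)).of_iso ((G.rightDerived p).mapIso (asIso (δ (q + 1))))
    obtain ⟨δ', hiso', hepi', w₀', w'', ses₁', ses₂'⟩ :=
      Groth.Agent.Sga4h.NcLerayAbs.exists_data (F ⋙ G) hS
    have := hiso' n
    exact hC.of_iso (asIso (δ' (n + 1))).symm

end Groth.Agent.Sga2lef.H134.CompVan
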