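import Groth.Agent.Sga2lef.H134.CompVan
import Groth.Agent.Sga4B.SuppFun
import Groth.Agent.Sga4h.SecSupp
import Groth.Agent.Sga4h.RDExact
import Groth.Agent.Sga4h.LocCohLES
import Groth.Prelude.Def_EtDepth

/-!
# Étale depth along a smaller closed subset, from the local cohomology sheaves along a bigger one
-/

set_option autoImplicit false
universe u
open CategoryTheory CategoryTheory.Limits AlgebraicGeometry Opposite

namespace Groth.Agent.Sga2lef.H134.DepthComp

open EtCoh Groth.Agent.Sga4B.SuppFun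

/-- `H^p_z(H^q_Z(F)) = 0` for `p + q < n` implies `H^i_z(F) = 0` for `i < n` (`z ⊆ Z`). -/
theorem depthGE_of_comp {X U W : Scheme.{u}} (jU : U ⟶ X) (jW : W ⟶ X) [IsOpenImmersion jU]
    [IsOpenImmersion jW] [EtCoh.BCCont jW] (a : U ⟶ W) (w : a ≫ jW = jU) (F : Ab X) (n : ℕ)
    (h : ∀ p q : ℕ, p + q < n → IsZero ((EtDual.locCoh jW p).obj ((EtDual.locCoh jU q).obj F))) :
    EtDepth.DepthGE jW F n := by
  intro i hi
  have i1 := Groth.Agent.Sga4h.LocCohLES.preservesFiniteLimits_secSupp jU
  have i2 := Groth.Agent.Sga4h.LocCohLES.preservesFiniteLimits_secSupp jW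
  have e1 : ((EtDual.secSupp jU ⋙ EtDual.secSupp jW).rightDerived i).obj F ≅ (EtDual.locCoh jW i).obj F :=
    (Groth.Agent.Sga4h.RDExact.congrIso (secSuppCompIso jU jW a w) i).app F
  refine IsZero.of_iso ?_ e1.symm
  exact CompVan.isZero_rightDerived_comp (EtDual.secSupp jU) (EtDual.secSupp jW)
    (fun I hI => Groth.Agent.Sga4h.SecSupp.injective_secSupp jU I) i F
    (fun p q hpq => h p q (by omega))

end Groth.Agent.Sga2lef.H134.DepthComp
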