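import Groth.Agent.CycB.RelDim2
import Groth.Agent.EtpbcA.ArtinTrdeg
import Mathlib.AlgebraicGeometry.Morphisms.Integral
import Mathlib.AlgebraicGeometry.Morphisms.OpenImmersion
import Mathlib.AlgebraicGeometry.Morphisms.ClosedImmersion
import Mathlib.FieldTheory.IsAlgClosed.AlgebraicClosure

/-!
# Dimension of the closure of a point of a scheme of finite type over a field

* `dim_closure_preimmersion`: invariance under (pre)immersions of schemes locally of finite type over a field;
* `dim_closure_baseChange`: invariance under an integral morphism `X' ⟶ X` over an algebraic field extension.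
-/

set_option autoImplicit false
universe u
open CategoryTheory CategoryTheory.Limits AlgebraicGeometry Opposite

namespace Groth.Agent.Sga2lef.H134.DimCl

open Groth.Agent.CycB.RelDim

theorem exists_dim {k : Type u} [Field k] {X : Scheme.{u}} (f : X ⟶ Spec (CommRingCat.of k))
    [LocallyOfFiniteType f] (x : X) :
    ∃ n : ℕ, rtd f x = n ∧ topologicalKrullDim (closure ({x} : Set X)) = n := by
  refine exists_dim_closure f (isAffineOpen_top _) ?_ x
  exact (Scheme.ΓSpecIso (CommRingCat.of k)).commRingCatIsoToRingEquiv.toMulEquiv.isField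
    (Field.toIsField k)

theorem dim_eq_iff {k : Type u} [Field k] {X : Scheme.{u}} (f : X ⟶ Spec (CommRingCat.of k))
    [LocallyOfFiniteType f] (x : X) (d : ℕ) :
    topologicalKrullDim (closure ({x} : Set X)) = (d : WithBot ℕ∞) ↔ rtd f x = d := by
  obtain ⟨n, h1, h2⟩ := exists_dim f x
  rw [h1, h2]
  constructor
  · intro h
    have : n = d := by exact_mod_cast h
    rw [this]
  · intro h
    have : n = d := by exact_mod_cast h
    rw [this]

theorem dim_closure_eq {k k' : Type u} [Field k] [Field k'] {X X' : Scheme.{u}}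
    (f : X ⟶ Spec (CommRingCat.of k)) (f' : X' ⟶ Spec (CommRingCat.of k'))
    [LocallyOfFiniteType f] [LocallyOfFiniteType f'] (x : X) (x' : X') (h : rtd f x = rtd f' x') :
    topologicalKrullDim (closure ({x} : Set X)) = topologicalKrullDim (closure ({x'} : Set X')) := by
  obtain ⟨n, h1, h2⟩ := exists_dim f x
  rw [h2]
  symm
  rw [dim_eq_iff f' x' n, ← h, h1]

/-- Invariance under preimmersions. -/
theorem dim_closure_preimmersion {k : Type u} [Field k] {X V : Scheme.{u}}
    (f : X ⟶ Spec (CommRingCat.of k)) [LocallyOfFiniteType f] (j : V ⟶ X) [IsPreimmersion j]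
    [LocallyOfFiniteType (j ≫ f)] (v : V) :
    topologicalKrullDim (closure ({v} : Set V)) = topologicalKrullDim (closure ({j v} : Set X)) := by
  refine dim_closure_eq (j ≫ f) f _ _ ?_
  rw [rtd_comp, rtd_eq_zero_of_isPreimmersion j, add_zero]

/-- Integral morphisms have relative transcendence degree zero. -/
theorem rtd_eq_zero_of_isIntegralHom {X Y : Scheme.{u}} (f : X ⟶ Y) [IsIntegralHom f] (x : X) :
    rtd f x = 0 := by
  have h := Groth.Agent.EtpbcA.Artin.algAt_of_isIntegralHom f x
  unfold rtd Groth.Agent.CycB.TrdegAlg.trd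
  let _ := (f.residueFieldMap x).hom.toAlgebra
  have : Algebra.IsIntegral (Y.residueField (f x)) (X.residueField x) := ⟨h⟩
  exact trdeg_eq_zero

/-- Invariance under a morphism `q : X' ⟶ X` with algebraic residue extensions over an algebraic
extension of the base field. -/
theorem dim_closure_integral {k k' : Type u} [Field k] [Field k'] {X X' : Scheme.{u}}
    (f : X ⟶ Spec (CommRingCat.of k)) (f' : X' ⟶ Spec (CommRingCat.of k'))
    [LocallyOfFiniteType f] [LocallyOfFiniteType f'] (q : X' ⟶ X)
    (s : Spec (CommRingCat.of k') ⟶ Spec (CommRingCat.of k)) [IsIntegralHom q] [IsIntegralHom s]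
    (w : q ≫ f = f' ≫ s) (x' : X') :
    topologicalKrullDim (closure ({x'} : Set X')) = topologicalKrullDim (closure ({q x'} : Set X)) := by
  symm
  refine dim_closure_eq f f' _ _ ?_
  have h1 := rtd_comp q f x'
  have h2 := rtd_comp f' s x'
  rw [rtd_eq_zero_of_isIntegralHom q, add_zero] at h1
  rw [rtd_eq_zero_of_isIntegralHom s, zero_add] at h2
  rw [← h1, ← h2, w]

end Groth.Agent.Sga2lef.H134.DimCl
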