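import Groth.Agent.Sga4h.BidRed538Et
import Groth.Agent.Sga4h.BidRed538Ext
import Groth.Agent.Sga4h.X144Shr
import Groth.Agent.Sga4h.BidIndLoc48

/-!
# The dual of a sheaf on an open subscheme

`nonempty_res_D`: `j^* H^q(D K) ≅ H^q(D (j^* K))` for `j` étale.
`isConstructible_homology_D`: the sheaves `H^q(D F)` are constructible for `F` constructible on an open of a scheme on
which the dual preserves `D^b_c`.
-/

set_option autoImplicit false
universe u

open CategoryTheory CategoryTheory.Limits AlgebraicGeometry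

attribute [local instance 5000] CategoryTheory.Abelian.toPreadditive
  CategoryTheory.Preadditive.preadditiveHasZeroMorphisms

namespace Groth.Agent.Sga2lef.H134.DualOpen

attribute [local instance] HasDerivedCategory.standard
open scoped Groth.Agent.Sga4h.ModInst
open Groth.Agent.Sga4h Groth.Agent.Sga4h.Refl Groth.Agent.Sga4h.ModRestr Groth.Agent.Sga4h.BidRed538Main
  Groth.Agent.Sga4h.BidRed538Asm Groth.Agent.Sga4h.BidEtSh Groth.Agent.Sga4h.BidEtMod

variable {Λ : Type (u + 1)} [CommRing Λ] {V X : Scheme.{u}}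

/-- Comparison of the dualizing complexes. -/
theorem exists_alpha (j : V ⟶ X) [Etale j] :
    ∃ f : ((resM Λ j).mapHomologicalComplex (ComplexShape.up ℤ)).obj (stdJ Λ X) ⟶ stdJ Λ V, QuasiIso f := by
  obtain ⟨e, he⟩ : ∃ e : ((resM Λ j).mapHomologicalComplex (ComplexShape.up ℤ)).obj (unitCx Λ X) ⟶ unitCx Λ V,
      QuasiIso e := BidEtRefl.exists_quasiIso_const (Λ := Λ) j
  have hK := isKInjective_stdJ Λ V
  have h1 : QuasiIso (((resM Λ j).mapHomologicalComplex (ComplexShape.up ℤ)).map (stdι Λ X)) := inferInstance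
  have h0 := quasiIso_stdι Λ V
  have h2 : QuasiIso (e ≫ stdι Λ V) := inferInstance
  exact BidEtCmp.exists_quasiIso_of_resolution
    (((resM Λ j).mapHomologicalComplex (ComplexShape.up ℤ)).map (stdι Λ X)) (e ≫ stdι Λ V)

/-- The comparison of the duals as an isomorphism on homology. -/
theorem nonempty_of_quasiIso {C : Type*} [Category* C] [Abelian C] {K L : CochainComplex C ℤ} (f : K ⟶ L)
    (hf : QuasiIso f) (q : ℤ) : Nonempty (K.homology q ≅ L.homology q) :=
  ⟨asIso (HomologicalComplex.homologyMap f q)⟩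

/-- **The dual commutes with étale localization.** -/
theorem nonempty_res_D (j : V ⟶ X) [Etale j] (K : CochainComplex (EtModW.Mod Λ X) ℤ) (q : ℤ) :
    Nonempty ((resM Λ j).obj (((stdDual Λ X).D K).homology q) ≅
      ((stdDual Λ V).D (((resM Λ j).mapHomologicalComplex (ComplexShape.up ℤ)).obj K)).homology q) := by
  obtain ⟨f, hf⟩ := exists_alpha (Λ := Λ) j
  obtain ⟨e⟩ := nonempty_of_quasiIso _ (BidEtRefl.quasiIso_cmp' (Λ := Λ) j (stdJ Λ X) (stdJ Λ V)
    (isKInjective_stdJ Λ X) (isKInjective_stdJ Λ V) f hf K) q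
  exact ⟨((((stdDual Λ X).D K).sc q).mapHomologyIso (resM Λ j)).symm ≪≫ e⟩

/-- The dual of isomorphic complexes. -/
theorem nonempty_D_iso (A : DualData (EtModD.tensorBi Λ X)) {K L : CochainComplex (EtModW.Mod Λ X) ℤ} (e : K ≅ L)
    (q : ℤ) : Nonempty ((A.D K).homology q ≅ (A.D L).homology q) :=
  ⟨(HomologicalComplex.homologyFunctor _ _ q).mapIso (A.F.mapIso e.symm.op)⟩

/-- The restriction of the extension by zero, as a complex. -/
theorem nonempty_single (j : V ⟶ X) [Etale j] [Mono j] (F : EtModW.Mod Λ V) :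
    Nonempty (((resM Λ j).mapHomologicalComplex (ComplexShape.up ℤ)).obj
      ((CochainComplex.singleFunctor (EtModW.Mod Λ X) 0).obj ((ext Λ j).obj F)) ≅
        (CochainComplex.singleFunctor (EtModW.Mod Λ V) 0).obj F) := by
  have h : IsIso ((extResAdj Λ j).unit.app F) := inferInstance
  exact ⟨resSingle j ((ext Λ j).obj F) ≪≫
    (CochainComplex.singleFunctor (EtModW.Mod Λ V) 0).mapIso (asIso ((extResAdj Λ j).unit.app F)).symm⟩

/-- The dual of the restriction of the extension by zero. -/
theorem nonempty_res_D_ext (j : V ⟶ X) [Etale j] [Mono j] (F : EtModW.Mod Λ V) (q : ℤ) :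
    Nonempty ((resM Λ j).obj (((stdDual Λ X).D ((CochainComplex.singleFunctor (EtModW.Mod Λ X) 0).obj
      ((ext Λ j).obj F))).homology q) ≅
        ((stdDual Λ V).D ((CochainComplex.singleFunctor (EtModW.Mod Λ V) 0).obj F)).homology q) := by
  obtain ⟨e⟩ := nonempty_res_D j ((CochainComplex.singleFunctor (EtModW.Mod Λ X) 0).obj ((ext Λ j).obj F)) q
  obtain ⟨e₀⟩ := nonempty_single j F
  obtain ⟨e'⟩ := nonempty_D_iso (stdDual Λ V) e₀ q
  exact ⟨e ≪≫ e'⟩

/-- **Constructibility of the cohomology sheaves of the dual on an open subscheme.** -/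
theorem isConstructible_homology_D [Finite Λ] (j : V ⟶ X) [IsOpenImmersion j] [IsNoetherian X] [IsNoetherian V]
    (hB : BidIndLoc48.Bid (stdDual Λ X)) (F : EtModW.Mod Λ V) (hF : EtModW.IsConstructible Λ F) (q : ℤ) :
    EtModW.IsConstructible Λ
      (((stdDual Λ V).D ((CochainComplex.singleFunctor (EtModW.Mod Λ V) 0).obj F)).homology q) := by
  obtain ⟨e⟩ := nonempty_res_D_ext j F q
  have h1 : EtModW.IsConstructible Λ ((ext Λ j).obj F) := BidRed538Ext.isConstructible_ext j F hF
  have h2 := hB.dbc _ ((Dbc323.isDbc_Q_single_iff ((ext Λ j).obj F) 0).2 h1)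
  have h3 : EtModW.IsConstructible Λ (((stdDual Λ X).D ((CochainComplex.singleFunctor (EtModW.Mod Λ X) 0).obj
      ((ext Λ j).obj F))).homology q) := by
    refine Etcore.LCrit.isConstructible_of_iso ?_ (h2.2 q)
    exact (DerivedCategory.homologyFunctorFactors _ q).app _
  have h4 := Etcore.LCrit.isConstructible_pull j _ h3
  have h5 := Etrest.ModCons.isConstructible_of_iso ((ExtFree.pullIsoRes j).app _) h4
  exact Etrest.ModCons.isConstructible_of_iso e h5

end Groth.Agent.Sga2lef.H134.DualOpen
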